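import Cfsg.Agent.H84.GaussTwF4B

/-!
# `²F₄(q)`: parabolic double cosets and the action of the Weyl group on the torus (S2452, `q = 8`; helper84)
-/

set_option autoImplicit false
set_option linter.unusedSectionVars false

namespace Cfsg.Agent.H84.TF8

open Cfsg.Agent.SplitTwo Cfsg.Agent.SplitTwo.ZS Cfsg.Agent.TitsThree.RankTwoZ
open Cfsg.Agent.KFacts.TwF4 Cfsg.Agent.KFacts.TwF4.Arc Cfsg.Agent.KFacts.TwF4.Inv
open Cfsg.Agent.H84.TwF4Two Cfsg.Agent.H84.GaussTwF4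

universe u

variable {F : Type*} [Field F] {σ : F →+* F} {G : Type u} [Group G] {S : Full σ G}

/-! ### the Borel subgroup and the parabolic -/

/-- the Borel subgroup -/
def Bo (S : Full σ G) : Subgroup G where
  carrier := {g | ∃ u ∈ J S.XZ 1 8, ∃ t ∈ S.T, g = u * t}
  one_mem' := ⟨1, one_mem _, 1, one_mem _, by rw [mul_one]⟩
  mul_mem' := by
    rintro _ _ ⟨u, hu, t, ht, rfl⟩ ⟨u', hu', t', ht', rfl⟩
    exact ⟨u * (t * u' * t⁻¹), mul_mem hu (S.T_conj_J ht hu'), t * t', mul_mem ht ht', by group⟩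
  inv_mem' := by
    rintro _ ⟨u, hu, t, ht, rfl⟩
    refine ⟨t⁻¹ * u⁻¹ * t⁻¹⁻¹, S.T_conj_J (inv_mem ht) (inv_mem hu), t⁻¹, inv_mem ht, by group⟩

theorem mem_Bo {g : G} : g ∈ Bo S ↔ ∃ u ∈ J S.XZ 1 8, ∃ t ∈ S.T, g = u * t := Iff.rfl

theorem U_le_Bo : J S.XZ 1 8 ≤ Bo S := fun u hu => ⟨u, hu, 1, one_mem _, by rw [mul_one]⟩
theorem T_le_Bo : S.T ≤ Bo S := fun t ht => ⟨1, one_mem _, t, ht, by rw [one_mul]⟩

/-- the map `d ↦ h 1 d` -/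
def zh (S : Full σ G) : Fˣ →* G where
  toFun d := S.h 1 d
  map_one' := S.h_one
  map_mul' a b := by rw [S.h_mul, one_mul]

/-- the centre of the Levi factor -/
def Zz (S : Full σ G) : Subgroup G := (zh S).range

theorem mem_Zz {g : G} : g ∈ Zz S ↔ ∃ d, S.h 1 d = g := Iff.rfl

theorem Zz_le_T : Zz S ≤ S.T := by
  rintro _ ⟨d, rfl⟩
  exact S.mem_T.2 ⟨_, _, rfl⟩

theorem Zz_comm {z l : G} (hz : z ∈ Zz S) (hl : l ∈ LL S) : z * l = l * z := by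
  obtain ⟨d, rfl⟩ := hz
  exact h_comm_LL d hl

theorem Zz_conj17 {z u : G} (hz : z ∈ Zz S) (hu : u ∈ J S.XZ 1 7) : z * u * z⁻¹ ∈ J S.XZ 1 7 :=
  S.T_conj_J (Zz_le_T hz) hu

/-- the parabolic -/
def Pa (S : Full σ G) : Subgroup G where
  carrier := {g | ∃ u ∈ J S.XZ 1 7, ∃ l ∈ LL S, ∃ z ∈ Zz S, g = u * l * z}
  one_mem' := ⟨1, one_mem _, 1, one_mem _, 1, one_mem _, by group⟩
  mul_mem' := by
    rintro _ _ ⟨u, hu, l, hl, z, hz, rfl⟩ ⟨u', hu', l', hl', z', hz', rfl⟩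
    refine ⟨u * (l * (z * u' * z⁻¹) * l⁻¹), mul_mem hu (LL_conj17 hl (Zz_conj17 hz hu')), l * l', mul_mem hl hl',
      z * z', mul_mem hz hz', ?_⟩
    have h := Zz_comm hz hl'
    calc u * l * z * (u' * l' * z') = u * l * (z * u' * z⁻¹) * (z * l') * z' := by group
      _ = u * (l * (z * u' * z⁻¹) * l⁻¹) * (l * l') * (z * z') := by rw [h]; group
  inv_mem' := by
    rintro _ ⟨u, hu, l, hl, z, hz, rfl⟩
    refine ⟨l⁻¹ * (z⁻¹ * u⁻¹ * z⁻¹⁻¹) * l⁻¹⁻¹, LL_conj17 (inv_mem hl) (Zz_conj17 (inv_mem hz) (inv_mem hu)),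
      l⁻¹, inv_mem hl, z⁻¹, inv_mem hz, ?_⟩
    have h := Zz_comm (inv_mem hz) (inv_mem hl)
    calc (u * l * z)⁻¹ = z⁻¹ * l⁻¹ * u⁻¹ := by group
      _ = l⁻¹ * (z⁻¹ * u⁻¹ * z⁻¹⁻¹) * l⁻¹⁻¹ * (l⁻¹ * z⁻¹) := by rw [h]; group
      _ = _ := by group

theorem mem_Pa {g : G} : g ∈ Pa S ↔ ∃ u ∈ J S.XZ 1 7, ∃ l ∈ LL S, ∃ z ∈ Zz S, g = u * l * z := Iff.rfl

theorem UP_le : J S.XZ 1 7 ≤ Pa S := fun u hu => ⟨u, hu, 1, one_mem _, 1, one_mem _, by group⟩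
theorem LL_le_Pa : LL S ≤ Pa S := fun l hl => ⟨1, one_mem _, l, hl, 1, one_mem _, by group⟩
theorem Zz_le_Pa : Zz S ≤ Pa S := fun z hz => ⟨1, one_mem _, 1, one_mem _, z, hz, by group⟩

theorem UP_normal {p u : G} (hp : p ∈ Pa S) (hu : u ∈ J S.XZ 1 7) : p * u * p⁻¹ ∈ J S.XZ 1 7 := by
  obtain ⟨v, hv, l, hl, z, hz, rfl⟩ := hp
  have h1 := mul_mem (mul_mem hv (LL_conj17 hl (Zz_conj17 hz hu))) (inv_mem hv)
  rwa [show v * (l * (z * u * z⁻¹) * l⁻¹) * v⁻¹ = v * l * z * u * (v * l * z)⁻¹ by group] at h1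

theorem U_split {u : G} (hu : u ∈ J S.XZ 1 8) : ∃ v ∈ S.XZ 8, ∃ u' ∈ J S.XZ 1 7, u = v * u' := by
  obtain ⟨x, hx, u', hu', rfl⟩ := S.zsys8.split_rl (a := 1) (b := 8) (by norm_num) (by norm_num) hu
  exact ⟨x, hx, u', hu', rfl⟩

theorem U_le_Pa : J S.XZ 1 8 ≤ Pa S := by
  intro u hu
  obtain ⟨v, hv, u', hu', rfl⟩ := U_split hu
  exact mul_mem (LL_le_Pa (X8_le hv)) (UP_le hu')

theorem n2_mem_Pa : S.n2 ∈ Pa S := LL_le_Pa n2_mem_LL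

section Fin

variable [Finite F]

theorem σ_units_surj (c : Fˣ) : ∃ e : Fˣ, Units.map (σ : F →* F) e = c := by
  have hinj : Function.Injective (Units.map (σ : F →* F)) := by
    intro a b h
    exact Units.ext (σ.injective (congrArg Units.val h))
  exact Finite.surjective_of_injective hinj c

/-- the torus is the product of the torus of the Levi factor and its centre -/
theorem T_split {t : G} (ht : t ∈ S.T) : ∃ e d : Fˣ, t = S.h (Units.map (σ : F →* F) e) e * S.h 1 d := by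
  obtain ⟨c, d, rfl⟩ := S.mem_T.1 ht
  obtain ⟨e, rfl⟩ := σ_units_surj (σ := σ) c
  exact ⟨e, e⁻¹ * d, by rw [S.h_mul, mul_one, mul_inv_cancel_left]⟩

theorem T_le_Pa : S.T ≤ Pa S := by
  intro t ht
  obtain ⟨e, d, rfl⟩ := T_split ht
  exact mul_mem (LL_le_Pa (h_mem_LL e)) (Zz_le_Pa ⟨d, rfl⟩)

theorem Bo_le_Pa : Bo S ≤ Pa S := by
  rintro _ ⟨u, hu, t, ht, rfl⟩
  exact mul_mem (U_le_Pa hu) (T_le_Pa ht)

theorem Pa_eq : Pa S = Bo S ⊔ Subgroup.closure {S.n2} := by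
  apply le_antisymm
  · rintro _ ⟨u, hu, l, hl, z, hz, rfl⟩
    have h8 : S.XZ 8 ≤ Bo S ⊔ Subgroup.closure {S.n2} := fun x hx =>
      (le_sup_left : Bo S ≤ _) (U_le_Bo (mem_J hx (by norm_num) le_rfl))
    have hn : S.n2 ∈ Bo S ⊔ Subgroup.closure {S.n2} := (le_sup_right : Subgroup.closure {S.n2} ≤ _)
      (Subgroup.subset_closure rfl)
    have hL : LL S ≤ Bo S ⊔ Subgroup.closure {S.n2} := by
      refine sup_le h8 ?_
      intro x hx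
      have h1 : S.n2⁻¹ * x * S.n2 ∈ S.XZ 8 := S.n2_refl.mem_inv hx (by norm_num)
      have h2 := mul_mem (mul_mem hn (h8 h1)) (inv_mem hn)
      rwa [show S.n2 * (S.n2⁻¹ * x * S.n2) * S.n2⁻¹ = x by group] at h2
    exact mul_mem (mul_mem ((le_sup_left : Bo S ≤ _) (U_le_Bo (J_mono le_rfl (by norm_num) hu))) (hL hl))
      ((le_sup_left : Bo S ≤ _) (T_le_Bo (Zz_le_T hz)))
  · exact sup_le Bo_le_Pa ((Subgroup.closure_le _).2 (by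
      rintro _ rfl
      exact n2_mem_Pa))

end Fin

/-! ### double cosets -/

theorem rota_T {w : G} (h : Rota S 0 w) : w ∈ S.T := mem_T_of_rota h

theorem T_rota {t : G} (h : t ∈ S.T) : Rota S 0 t := by
  intro j x
  rw [zero_add]
  exact (h _ x).symm

/-- Bruhat decomposition with a rotation or a reflection of even index between `0` and `14` -/
theorem bru (g : G) : ∃ b ∈ J S.XZ 1 8, ∃ b' ∈ J S.XZ 1 8, ∃ w, ∃ k : ℤ, 0 ≤ k ∧ k ≤ 7 ∧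
    (Rota S (2 * k) w ∨ Refl S.XZ (2 * k) w) ∧ g = b * w * b' := by
  obtain ⟨b, hb, s, hs, w, hw, b', hb', rfl⟩ := S.bruhatE g
  obtain ⟨c, hc'⟩ := hw
  have hcc : ((2 * c : ℤ) : ZMod (2 * 8)) = ((2 * (c % 8) : ℤ) : ZMod (2 * 8)) := by
    rw [ZMod.intCast_eq_intCast_iff]
    show (2 * c) % ((2 * 8 : ℕ) : ℤ) = (2 * (c % 8)) % ((2 * 8 : ℕ) : ℤ)
    push_cast
    omega
  rw [hcc] at hc'
  refine ⟨b, hb, b', hb', s * w, c % 8, by omega, by omega, ?_, by group⟩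
  rcases hc' with h | h
  · exact Or.inl (rota_of_maps ((Maps.mul hs h).congr fun k => rfl))
  · exact Or.inr (refl_of_maps ((Maps.mul hs h).congr fun k => rfl))

/-- the element `n` of the double coset opposite to `P` -/
def nn (S : Full σ G) : G := S.rot ^ (-2 : ℤ) * S.n2 * (S.rot ^ (-2 : ℤ))⁻¹

theorem nn_refl : Refl S.XZ 0 (nn S) := n4_refl

theorem nn_sq : nn S * nn S = 1 := by
  unfold nn
  calc _ = S.rot ^ (-2 : ℤ) * (S.n2 * S.n2) * (S.rot ^ (-2 : ℤ))⁻¹ := by group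
    _ = 1 := by rw [S.n2_sq]; group

theorem nn_inv : (nn S)⁻¹ = nn S := inv_eq_of_mul_eq_one_left nn_sq

theorem nn_mem : nn S ∈ S.XZ 4 ⊔ S.XZ (-4) := by
  unfold nn
  rw [S.n2_word]
  have h4 : ∀ p u, S.rot ^ (-2 : ℤ) * S.e 4 p u * (S.rot ^ (-2 : ℤ))⁻¹ ∈ S.XZ 4 ⊔ S.XZ (-4) := by
    intro p u
    have h1 : S.e 4 p u ∈ S.XZ 8 := by have := S.e_mem 4 p u; push_cast at this; exact this
    have h2 := S.rotk_X' (-2) 8 h1
    exact (le_sup_left : S.XZ 4 ≤ _) (by rwa [show (8 : ℤ) + 2 * -2 = 4 by norm_num] at h2)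
  have h0 : ∀ p u, S.rot ^ (-2 : ℤ) * S.e 0 p u * (S.rot ^ (-2 : ℤ))⁻¹ ∈ S.XZ 4 ⊔ S.XZ (-4) := by
    intro p u
    have h1 : S.e 0 p u ∈ S.XZ 0 := by have := S.e_mem 0 p u; push_cast at this; exact this
    have h2 := S.rotk_X' (-2) 0 h1
    exact (le_sup_right : S.XZ (-4) ≤ _) (by rwa [show (0 : ℤ) + 2 * -2 = -4 by norm_num] at h2)
  have := mul_mem (mul_mem (h4 0 1) (h0 1 1)) (h4 1 0)
  rwa [show S.rot ^ (-2 : ℤ) * S.e 4 0 1 * (S.rot ^ (-2 : ℤ))⁻¹ * (S.rot ^ (-2 : ℤ) * S.e 0 1 1 * (S.rot ^ (-2 : ℤ))⁻¹) *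
    (S.rot ^ (-2 : ℤ) * S.e 4 1 0 * (S.rot ^ (-2 : ℤ))⁻¹) =
    S.rot ^ (-2 : ℤ) * (S.e 4 0 1 * S.e 0 1 1 * S.e 4 1 0) * (S.rot ^ (-2 : ℤ))⁻¹ by group] at this

theorem nn_LL {l : G} (hl : l ∈ LL S) : nn S * l = l * nn S := (comm_04 hl nn_mem).symm

theorem nn_Zz {z : G} (hz : z ∈ Zz S) : nn S * z * (nn S)⁻¹ = z⁻¹ := by
  obtain ⟨d, rfl⟩ := hz
  show nn S * S.h 1 d * (nn S)⁻¹ = (S.h 1 d)⁻¹
  rw [refl0_h nn_refl, S.h_inv, inv_one]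

/-- a reflection times `n2` is a rotation -/
theorem refl_n2 {w : G} {c : ℤ} (h : Refl S.XZ c w) : Rota S (c - 8) (w * S.n2) := refl_mul h S.n2_refl

section Fin

variable [Finite F]

/-- **`P\G/P`** -/
theorem PGP (g : G) : g ∈ Pa S ∨ (∃ p ∈ Pa S, ∃ p' ∈ Pa S, g = p * nn S * p') ∨
    ∃ p ∈ Pa S, ∃ p' ∈ Pa S, ∃ r, g = p * r * p' ∧ ∀ v ∈ S.XZ 8, r * v * r⁻¹ ∈ J S.XZ 1 7 := by
  -- only rotations
  have key : ∀ g : G, (∃ p ∈ Pa S, ∃ p' ∈ Pa S, ∃ w, ∃ k : ℤ, 0 ≤ k ∧ k ≤ 7 ∧ Rota S (2 * k) w ∧ g = p * w * p') →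
      g ∈ Pa S ∨ (∃ p ∈ Pa S, ∃ p' ∈ Pa S, g = p * nn S * p') ∨
      ∃ p ∈ Pa S, ∃ p' ∈ Pa S, ∃ r, g = p * r * p' ∧ ∀ v ∈ S.XZ 8, r * v * r⁻¹ ∈ J S.XZ 1 7 := by
    rintro _ ⟨p, hp, p', hp', w, k, hk0, hk7, hw, rfl⟩
    rcases (show k = 0 ∨ (1 ≤ k ∧ k ≤ 3) ∨ k = 4 ∨ (5 ≤ k ∧ k ≤ 7) by omega) with rfl | ⟨h1, h2⟩ | rfl | ⟨h1, h2⟩
    · refine Or.inl (mul_mem (mul_mem hp (T_le_Pa (rota_T (by simpa using hw)))) hp')
    · refine Or.inr (Or.inr ⟨p, hp, S.n2⁻¹ * p', mul_mem (inv_mem n2_mem_Pa) hp', w * S.n2, by group, ?_⟩)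
      intro v hv
      have h3 : S.n2 * v * S.n2⁻¹ ∈ S.XZ 0 := S.n2_refl.mem' hv (by norm_num)
      have h4 := hw.mem h3
      rw [show w * (S.n2 * v * S.n2⁻¹) * w⁻¹ = w * S.n2 * v * (w * S.n2)⁻¹ by group] at h4
      exact mem_J h4 (by omega) (by omega)
    · refine Or.inr (Or.inl ?_)
      have h3 : Rota S (0 - 8) (nn S * S.n2) := refl_mul nn_refl S.n2_refl
      have h4 : Rota S (-8) (nn S * S.n2) := by rwa [show (0 : ℤ) - 8 = -8 by norm_num] at h3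
      have h5 : Rota S 8 (nn S * S.n2) := by
        have := rota_per h4
        rwa [show (-8 : ℤ) + 16 = 8 by norm_num] at this
      have h6 : Rota S 0 ((nn S * S.n2)⁻¹ * w) := by
        have := rota_mul (rota_inv h5) hw
        rwa [show (-8 : ℤ) + 2 * 4 = 0 by norm_num] at this
      refine ⟨p, hp, S.n2 * ((nn S * S.n2)⁻¹ * w) * p', mul_mem (mul_mem n2_mem_Pa (T_le_Pa (rota_T h6))) hp', by group⟩
    · refine Or.inr (Or.inr ⟨p, hp, p', hp', w, rfl, ?_⟩)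
      intro v hv
      have h4 := hw.mem hv
      rw [show 2 * k + 8 = (2 * k - 8) + 16 by ring, XZ_per] at h4
      exact mem_J h4 (by omega) (by omega)
  obtain ⟨b, hb, b', hb', w, k, hk0, hk7, hw, rfl⟩ := bru (S := S) g
  rcases hw with hw | hw
  · exact key _ ⟨b, U_le_Pa hb, b', U_le_Pa hb', w, k, hk0, hk7, hw, rfl⟩
  · have h1 := refl_n2 hw
    rcases lt_or_ge k 4 with h4 | h4
    · have h2 := rota_per h1
      refine key _ ⟨b, U_le_Pa hb, S.n2⁻¹ * b', mul_mem (inv_mem n2_mem_Pa) (U_le_Pa hb'), w * S.n2, k + 4, by omega,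
        by omega, ?_, by group⟩
      rwa [show 2 * k - 8 + 16 = 2 * (k + 4) by ring] at h2
    · refine key _ ⟨b, U_le_Pa hb, S.n2⁻¹ * b', mul_mem (inv_mem n2_mem_Pa) (U_le_Pa hb'), w * S.n2, k - 4, by omega,
        by omega, ?_, by group⟩
      rwa [show 2 * k - 8 = 2 * (k - 4) by ring] at h1

end Fin

end Cfsg.Agent.H84.TF8
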