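import Cfsg.Agent.H84.TF8.Frame

/-!
# `²F₄(q)`: the stabiliser in the Weyl group of a character of the torus; `P ∩ nPn⁻¹` (S2452, `q = 8`; helper84)
-/

set_option autoImplicit false
set_option linter.unusedSectionVars false

namespace Cfsg.Agent.H84.TF8

open Cfsg.Agent.SplitTwo Cfsg.Agent.SplitTwo.ZS Cfsg.Agent.TitsThree.RankTwoZ
open Cfsg.Agent.KFacts.TwF4 Cfsg.Agent.KFacts.TwF4.Arc Cfsg.Agent.KFacts.TwF4.Inv
open Cfsg.Agent.H84.TwF4Two Cfsg.Agent.H84.GaussTwF4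

universe u

variable {F : Type*} [Field F] {σ : F →+* F} {G : Type u} [Group G] {S : Full σ G}

theorem rotk_h (k : ℤ) (c d : Fˣ) : S.rot ^ k * S.h c d * (S.rot ^ k)⁻¹ =
    S.h (chE σ (-(k : ZMod 8)) c d) (chE σ (1 - (k : ZMod 8)) c d) := by
  have hr : Rota S (2 * k) (S.rot ^ k) := rota_of_maps (S.rot_maps k)
  have hT : S.rot ^ k * S.h c d * (S.rot ^ k)⁻¹ ∈ S.T := by
    have h1 := rota_mul (rota_mul hr (T_rota (S.mem_T.2 ⟨c, d, rfl⟩))) (rota_inv hr)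
    rw [show 2 * k + 0 + -(2 * k) = 0 by ring] at h1
    exact rota_T h1
  have key : ∀ a : ZMod 8, (S.rot ^ k * S.h c d * (S.rot ^ k)⁻¹) * S.e a 1 0 *
      (S.rot ^ k * S.h c d * (S.rot ^ k)⁻¹)⁻¹ = S.e a (chE σ (a - k) c d) 0 := by
    intro a
    have e1 : (S.rot ^ k)⁻¹ * S.e a 1 0 * S.rot ^ k = S.e (a - k) 1 0 := by
      have := S.rotk_e k (a - k) 1 0
      rw [sub_add_cancel] at this
      rw [← this]; group
    have e2 : (S.rot ^ k * S.h c d * (S.rot ^ k)⁻¹) * S.e a 1 0 * (S.rot ^ k * S.h c d * (S.rot ^ k)⁻¹)⁻¹ =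
        S.rot ^ k * (S.h c d * ((S.rot ^ k)⁻¹ * S.e a 1 0 * S.rot ^ k) * (S.h c d)⁻¹) * (S.rot ^ k)⁻¹ := by group
    rw [e2, e1, S.h_e, S.rotk_e, sub_add_cancel, mul_one, mul_zero]
  refine h_eq_of S hT ?_ ?_
  · have := key 0
    rwa [zero_sub] at this
  · exact key 1

/-- rotations of the same index act alike on the torus -/
theorem rota_conj_T {c : ℤ} {w w' t : G} (hw : Rota S c w) (hw' : Rota S c w') (ht : t ∈ S.T) :
    w * t * w⁻¹ = w' * t * w'⁻¹ := by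
  have h1 := rota_mul (rota_inv hw') hw
  rw [neg_add_cancel] at h1
  have h2 := T_comm (rota_T h1) ht
  calc w * t * w⁻¹ = w' * ((w'⁻¹ * w) * t) * w⁻¹ := by group
    _ = w' * t * w'⁻¹ := by rw [h2]; group

theorem rota_T_mem {c : ℤ} {w t : G} (hw : Rota S c w) (ht : t ∈ S.T) : w * t * w⁻¹ ∈ S.T := by
  have h1 := rota_mul (rota_mul hw (T_rota ht)) (rota_inv hw)
  rw [show c + 0 + -c = 0 by ring] at h1
  exact rota_T h1

section Fin

variable [Finite F]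

theorem ind8' (a : ZMod 8) : a = 0 ∨ a = 1 ∨ a = 2 ∨ a = 3 ∨ a = 4 ∨ a = 5 ∨ a = 6 ∨ a = 7 := by
  revert a; decide

/-- **a rotation fixes no non-trivial character of the torus which is trivial on the torus of the Levi factor** -/
theorem triv_of_rot {M : Type*} [CommGroup M] (f : Fˣ → Fˣ → M) (hf : ∀ c d c' d', f (c * c') (d * d') = f c d * f c' d')
    (hTS : ∀ d, f (Units.map (σ : F →* F) d) d = 1) {a : ZMod 8} (ha : a ≠ 0)
    (hinv : ∀ c d, f (chE σ (-a) c d) (chE σ (1 - a) c d) = f c d) (hsq : ∀ x : F, σ (σ x) = x ^ 2) (_htwo : (2 : F) = 0)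
    (c d : Fˣ) : f c d = 1 := by
  have hmm : ∀ x : Fˣ, Units.map (σ : F →* F) (Units.map (σ : F →* F) x) = x ^ 2 := map_map σ hsq
  have f11 : f 1 1 = 1 := by
    have := hTS 1
    rwa [map_one] at this
  have finv : ∀ c d, f c⁻¹ d⁻¹ = (f c d)⁻¹ := by
    intro c d
    rw [eq_inv_iff_mul_eq_one, ← hf, inv_mul_cancel, inv_mul_cancel, f11]
  -- the values on `(σ d, d)`
  have hd : ∀ d : Fˣ, f (chE σ (-a) (Units.map (σ : F →* F) d) d) (chE σ (1 - a) (Units.map (σ : F →* F) d) d) = 1 :=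
    fun d => (hinv _ _).trans (hTS d)
  -- from `f 1 d = 1`
  have A1 : (∀ d, f 1 d = 1) → f c d = 1 := by
    intro h
    obtain ⟨e, rfl⟩ := σ_units_surj (σ := σ) c
    have := hf (Units.map (σ : F →* F) e) e 1 (e⁻¹ * d)
    rw [hTS, h, mul_one, mul_one, mul_inv_cancel_left] at this
    exact this
  have A2 : (∀ c, f c 1 = 1) → f c d = 1 := by
    intro h
    have := hf (Units.map (σ : F →* F) d) d ((Units.map (σ : F →* F) d)⁻¹ * c) 1
    rw [hTS, h, mul_one, mul_one, mul_inv_cancel_left] at this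
    exact this
  have A3 : (∀ b, f b (Units.map (σ : F →* F) b) = 1) → f c d = 1 := by
    intro h
    have h1 := hf (Units.map (σ : F →* F) (Units.map (σ : F →* F) c / d)) (Units.map (σ : F →* F) c / d)
      (Units.map (σ : F →* F) d / c) (Units.map (σ : F →* F) (Units.map (σ : F →* F) d / c))
    rw [hTS, h, mul_one] at h1
    have e1 : Units.map (σ : F →* F) (Units.map (σ : F →* F) c / d) * (Units.map (σ : F →* F) d / c) = c := by
      rw [map_div, hmm, pow_two, div_mul_div_comm, mul_comm (Units.map (σ : F →* F) d) c, ← div_mul_div_comm, div_self',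
        mul_one, mul_div_cancel_right]
    have e2 : (Units.map (σ : F →* F) c / d) * Units.map (σ : F →* F) (Units.map (σ : F →* F) d / c) = d := by
      rw [map_div, hmm, pow_two, div_mul_div_comm, mul_comm d (Units.map (σ : F →* F) c), ← div_mul_div_comm, div_self',
        one_mul, mul_div_cancel_right]
    rwa [e1, e2] at h1
  have mm1 : ∀ d : Fˣ, Units.map (σ : F →* F) (Units.map (σ : F →* F) d) / d = d := fun d => by
    rw [hmm, pow_two, mul_div_cancel_right]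
  have mm2 : ∀ d : Fˣ, d / Units.map (σ : F →* F) (Units.map (σ : F →* F) d) = d⁻¹ := fun d => by
    rw [hmm, pow_two, div_mul_cancel_left]
  rcases ind8' a with h | h | h | h | h | h | h | h
  · exact absurd h ha
  · -- `a = 1`: `(d, σ d)`
    refine A3 fun b => ?_
    have := hd b
    rw [h, show -(1 : ZMod 8) = 7 by decide, show (1 : ZMod 8) - 1 = 0 by decide, chE_seven, chE_zero, mm1] at this
    exact this
  · -- `a = 2`: `(1, d)`
    refine A1 fun b => ?_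
    have := hd b
    rw [h, show -(2 : ZMod 8) = 6 by decide, show (1 : ZMod 8) - 2 = 7 by decide, chE_seven, chE_six, mm1, div_self'] at this
    exact this
  · -- `a = 3`: `(d⁻¹, 1)`
    refine A2 fun b => ?_
    have := hd b⁻¹
    rw [h, show -(3 : ZMod 8) = 5 by decide, show (1 : ZMod 8) - 3 = 6 by decide, chE_five, chE_six, inv_inv, div_self'] at this
    exact this
  · -- `a = 4`: inversion
    refine A1 fun b => ?_
    have h4 : ∀ d, f 1 d⁻¹ = f 1 d := by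
      intro d
      have := hinv 1 d
      rw [h, show -(4 : ZMod 8) = 4 by decide, show (1 : ZMod 8) - 4 = 5 by decide, chE_four, chE_five, inv_one] at this
      exact this
    have h5 : ∀ d, f 1 (d ^ 2) = 1 := by
      intro d
      have h6 := hf 1 d 1 d
      rw [one_mul, ← pow_two] at h6
      have h7 := finv 1 d
      rw [inv_one, h4] at h7
      rw [h6]
      nth_rewrite 2 [h7]
      rw [mul_inv_cancel]
    obtain ⟨x, rfl⟩ := σ_units_surj (σ := σ) b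
    obtain ⟨y, rfl⟩ := σ_units_surj (σ := σ) x
    rw [hmm]
    exact h5 y
  · -- `a = 5`: `(d⁻¹, σ d⁻¹)`
    refine A3 fun b => ?_
    have := hd b⁻¹
    rw [h, show -(5 : ZMod 8) = 3 by decide, show (1 : ZMod 8) - 5 = 4 by decide, chE_three, chE_four, mm2, inv_inv,
      map_inv, inv_inv] at this
    exact this
  · -- `a = 6`: `(1, d⁻¹)`
    refine A1 fun b => ?_
    have := hd b⁻¹
    rw [h, show -(6 : ZMod 8) = 2 by decide, show (1 : ZMod 8) - 6 = 3 by decide, chE_two, chE_three, mm2, div_self',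
      inv_inv] at this
    exact this
  · -- `a = 7`: `(d, 1)`
    refine A2 fun b => ?_
    have := hd b
    rw [h, show -(7 : ZMod 8) = 1 by decide, show (1 : ZMod 8) - 7 = 2 by decide, chE_one, chE_two, div_self'] at this
    exact this

end Fin

/-- the torus of the Levi factor -/
def TS (S : Full σ G) : Subgroup G where
  carrier := {g | ∃ d : Fˣ, S.h (Units.map (σ : F →* F) d) d = g}
  one_mem' := ⟨1, by rw [map_one]; exact S.h_one⟩
  mul_mem' := by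
    rintro _ _ ⟨d, rfl⟩ ⟨d', rfl⟩
    exact ⟨d * d', by rw [S.h_mul, map_mul]⟩
  inv_mem' := by
    rintro _ ⟨d, rfl⟩
    exact ⟨d⁻¹, by rw [S.h_inv, map_inv]⟩

theorem TS_le_T : TS S ≤ S.T := by
  rintro _ ⟨d, rfl⟩
  exact S.mem_T.2 ⟨_, _, rfl⟩

theorem TS_le_Bo : TS S ≤ Bo S := TS_le_T.trans T_le_Bo

theorem TS_le_LL [Finite F] : TS S ≤ LL S := by
  rintro _ ⟨d, rfl⟩
  exact h_mem_LL d

/-! ### elements of `P` in double cosets -/

theorem conj_Zc2 {w : G} (hw : w ∈ Pa S) {z : G} (hz : z ∈ S.Zc 2) : w * z * w⁻¹ ∈ S.Zc 2 := by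
  rw [← S.centralizer_Q] at hz ⊢
  rw [Subgroup.mem_centralizer_iff] at hz ⊢
  intro x hx
  have h1 := hz (w⁻¹ * x * w⁻¹⁻¹) (UP_normal (inv_mem hw) hx)
  calc x * (w * z * w⁻¹) = w * ((w⁻¹ * x * w⁻¹⁻¹) * z) * w⁻¹ := by group
    _ = w * z * w⁻¹ * x := by rw [h1]; group

theorem Zc2_ne : ∃ z ∈ S.Zc 2, z ≠ 1 := ⟨S.e 2 0 1, ⟨1, rfl⟩, fun h => one_ne_zero (S.e_eq_one h).2⟩

theorem rota_Pa {w : G} {k : ℤ} (hw : Rota S (2 * k) w) (hp : w ∈ Pa S) (h0 : 0 ≤ k) (h7 : k ≤ 7) : k = 0 := by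
  by_contra hk
  obtain ⟨z, hz, hz1⟩ := Zc2_ne (S := S)
  have h1 : w * z * w⁻¹ ∈ S.XZ (2 * k + 4) := hw.mem (by have := S.Zc_le 2 hz; simpa using this)
  have h2 : w * z * w⁻¹ ∈ S.XZ 4 := by
    have := S.Zc_le 2 (conj_Zc2 hp hz); simpa using this
  have h3 : w * z * w⁻¹ = 1 := by
    refine S.X_inf (i := ((2 * k + 4 : ℤ) : ZMod (2 * 8))) (j := ((4 : ℤ) : ZMod (2 * 8))) ?_ h1 h2
    intro h
    rw [ZMod.intCast_eq_intCast_iff] at h
    have h' : (2 * k + 4) % ((2 * 8 : ℕ) : ℤ) = 4 % ((2 * 8 : ℕ) : ℤ) := h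
    push_cast at h'
    omega
  exact hz1 (by
    have : z = w⁻¹ * (w * z * w⁻¹) * w := by group
    rw [this, h3]; group)

theorem refl_Pa {w : G} {k : ℤ} (hw : Refl S.XZ (2 * k) w) (hp : w ∈ Pa S) (h0 : 0 ≤ k) (h7 : k ≤ 7) : k = 4 := by
  by_contra hk
  obtain ⟨z, hz, hz1⟩ := Zc2_ne (S := S)
  have h1 : w * z * w⁻¹ ∈ S.XZ (2 * k - 4) := hw.mem (by have := S.Zc_le 2 hz; simpa using this)
  have h2 : w * z * w⁻¹ ∈ S.XZ 4 := by
    have := S.Zc_le 2 (conj_Zc2 hp hz); simpa using this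
  have h3 : w * z * w⁻¹ = 1 := by
    refine S.X_inf (i := ((2 * k - 4 : ℤ) : ZMod (2 * 8))) (j := ((4 : ℤ) : ZMod (2 * 8))) ?_ h1 h2
    intro h
    rw [ZMod.intCast_eq_intCast_iff] at h
    have h' : (2 * k - 4) % ((2 * 8 : ℕ) : ℤ) = 4 % ((2 * 8 : ℕ) : ℤ) := h
    push_cast at h'
    omega
  exact hz1 (by
    have : z = w⁻¹ * (w * z * w⁻¹) * w := by group
    rw [this, h3]; group)

section Fin

variable [Finite F]

/-- **`B\P/B`** -/
theorem BPB {g : G} (hg : g ∈ Pa S) : g ∈ Bo S ∨ ∃ b ∈ Bo S, ∃ b' ∈ Bo S, g = b * S.n2 * b' := by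
  obtain ⟨b, hb, b', hb', w, k, hk0, hk7, hw, rfl⟩ := bru (S := S) g
  have hwP : w ∈ Pa S := by
    have h1 := mul_mem (mul_mem (inv_mem (U_le_Pa hb)) hg) (inv_mem (U_le_Pa hb'))
    rwa [show b⁻¹ * (b * w * b') * b'⁻¹ = w by group] at h1
  rcases hw with hw | hw
  · have hk := rota_Pa hw hwP hk0 hk7
    subst hk
    have hT : w ∈ S.T := rota_T (by simpa using hw)
    exact Or.inl (mul_mem (mul_mem (U_le_Bo hb) (T_le_Bo hT)) (U_le_Bo hb'))
  · have hk := refl_Pa hw hwP hk0 hk7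
    subst hk
    have hT : w * S.n2⁻¹ ∈ S.T := by
      have h1 := refl_mul hw S.n2_refl.inv
      rw [show (2 : ℤ) * 4 - 8 = 0 by norm_num] at h1
      exact rota_T h1
    exact Or.inr ⟨b * (w * S.n2⁻¹), mul_mem (U_le_Bo hb) (T_le_Bo hT), b', U_le_Bo hb', by group⟩

/-- **(E2)** outside `P` the character `μ` is moved -/
theorem e2_key {M : Type*} [CommGroup M] (μ : ↥(Bo S) →* M) (hU : ∀ u (hu : u ∈ J S.XZ 1 8), μ ⟨u, U_le_Bo hu⟩ = 1)
    (hTS : ∀ s (hs : s ∈ TS S), μ ⟨s, TS_le_Bo hs⟩ = 1) (hne : μ ≠ 1) {g : G} (hg : g ∉ Pa S) :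
    ∃ b ∈ Bo S, ∃ b' ∈ Bo S, ∃ w, g = b * w * b' ∧ ∃ s, ∃ hs : s ∈ Bo S, ∃ hs' : w * s * w⁻¹ ∈ Bo S,
      μ ⟨w * s * w⁻¹, hs'⟩ ≠ μ ⟨s, hs⟩ := by
  obtain ⟨b, hb, b', hb', w, k, hk0, hk7, hw, rfl⟩ := bru (S := S) g
  have hwT : ∀ t ∈ S.T, w * t * w⁻¹ ∈ S.T := by
    intro t ht
    rcases hw with hw | hw
    · exact rota_T_mem hw ht
    · exact refl_T hw ht
  refine ⟨b, U_le_Bo hb, b', U_le_Bo hb', w, rfl, ?_⟩
  by_contra hcon
  push Not at hcon
  have hinv : ∀ t (ht : t ∈ S.T), μ ⟨w * t * w⁻¹, T_le_Bo (hwT t ht)⟩ = μ ⟨t, T_le_Bo ht⟩ :=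
    fun t ht => hcon t (T_le_Bo ht) (T_le_Bo (hwT t ht))
  set f : Fˣ → Fˣ → M := fun c d => μ ⟨S.h c d, T_le_Bo (S.mem_T.2 ⟨c, d, rfl⟩)⟩ with hfdef
  have hf : ∀ c d c' d', f (c * c') (d * d') = f c d * f c' d' := by
    intro c d c' d'
    rw [hfdef]
    simp only
    rw [← map_mul]
    congr 1
    exact Subtype.ext (S.h_mul c d c' d').symm
  have hfS : ∀ d, f (Units.map (σ : F →* F) d) d = 1 := fun d => hTS _ ⟨d, rfl⟩
  have hval : ∀ t (ht : t ∈ S.T) (c d : Fˣ), t = S.h c d → μ ⟨t, T_le_Bo ht⟩ = f c d := by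
    rintro t ht c d rfl
    rfl
  -- if all the values are trivial then `μ = 1`
  have hfin : ¬ ∀ c d, f c d = 1 := by
    intro h
    apply hne
    ext ⟨x, hx⟩
    obtain ⟨u, hu, t, ht, rfl⟩ := hx
    obtain ⟨c, d, rfl⟩ := S.mem_T.1 ht
    have h1 : μ ⟨u * S.h c d, ⟨u, hu, S.h c d, ht, rfl⟩⟩ = μ ⟨u, U_le_Bo hu⟩ * μ ⟨S.h c d, T_le_Bo ht⟩ := by
      rw [← map_mul]; rfl
    rw [h1, hU u hu, one_mul]
    exact h c d
  have hwnP : w ∉ Pa S := by
    intro h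
    exact hg (mul_mem (mul_mem (U_le_Pa hb) h) (U_le_Pa hb'))
  rcases hw with hw | hw
  · -- rotation
    have hk : (k : ZMod 8) ≠ 0 := by
      intro h
      rw [show (0 : ZMod 8) = ((0 : ℤ) : ZMod 8) by norm_num, ZMod.intCast_eq_intCast_iff] at h
      have h' : k % ((8 : ℕ) : ℤ) = 0 % ((8 : ℕ) : ℤ) := h
      push_cast at h'
      have hk' : k = 0 := by omega
      subst hk'
      exact hwnP (T_le_Pa (rota_T (by simpa using hw)))
    refine hfin fun c d => triv_of_rot f hf hfS hk ?_ S.sq S.two c d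
    intro c d
    have h1 := hinv (S.h c d) (S.mem_T.2 ⟨c, d, rfl⟩)
    rw [hval _ (hwT _ (S.mem_T.2 ⟨c, d, rfl⟩)) (chE σ (-(k : ZMod 8)) c d) (chE σ (1 - (k : ZMod 8)) c d)
      (by rw [rota_conj_T hw (rota_of_maps (S.rot_maps k)) (S.mem_T.2 ⟨c, d, rfl⟩), rotk_h])] at h1
    exact h1
  · -- reflection
    have h1 : Rota S (2 * (k - 4)) (w * S.n2) := by
      have := refl_n2 hw
      rwa [show 2 * k - 8 = 2 * (k - 4) by ring] at this
    have hk : ((k - 4 : ℤ) : ZMod 8) ≠ 0 := by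
      intro h
      rw [show (0 : ZMod 8) = ((0 : ℤ) : ZMod 8) by norm_num, ZMod.intCast_eq_intCast_iff] at h
      have h' : (k - 4) % ((8 : ℕ) : ℤ) = 0 % ((8 : ℕ) : ℤ) := h
      push_cast at h'
      have hk' : k = 4 := by omega
      subst hk'
      have h2 : w * S.n2 ∈ S.T := rota_T (by simpa using h1)
      apply hwnP
      have := mul_mem (T_le_Pa h2) (inv_mem (n2_mem_Pa (S := S)))
      rwa [mul_inv_cancel_right] at this
    refine hfin fun c d => triv_of_rot f hf hfS hk ?_ S.sq S.two c d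
    -- `μ` is fixed by `n2`
    have hn2 : ∀ c d, f c⁻¹ (d / Units.map (σ : F →* F) c) = f c d := by
      intro c d
      have h3 := hf c⁻¹ (d / Units.map (σ : F →* F) c) (Units.map (σ : F →* F) (Units.map (σ : F →* F) c))
        (Units.map (σ : F →* F) c)
      rw [hfS, mul_one, map_map σ S.sq, pow_two, inv_mul_cancel_left, div_mul_cancel] at h3
      exact h3.symm
    intro c d
    have ht : S.h c⁻¹ (d / Units.map (σ : F →* F) c) ∈ S.T := S.mem_T.2 ⟨_, _, rfl⟩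
    have h4 := hinv _ ht
    have h5 : S.n2 * S.h c⁻¹ (d / Units.map (σ : F →* F) c) * S.n2⁻¹ = S.h c d := by
      rw [S.n2_h, inv_inv, map_inv, div_inv_eq_mul, div_mul_cancel]
    have h6 : w * S.h c⁻¹ (d / Units.map (σ : F →* F) c) * w⁻¹ =
        S.h (chE σ (-((k - 4 : ℤ) : ZMod 8)) c d) (chE σ (1 - ((k - 4 : ℤ) : ZMod 8)) c d) := by
      have h7 : w * S.h c⁻¹ (d / Units.map (σ : F →* F) c) * w⁻¹ = (w * S.n2) * (S.h c d) * (w * S.n2)⁻¹ := by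
        have h8 : S.h c⁻¹ (d / Units.map (σ : F →* F) c) = S.n2 * S.h c d * S.n2⁻¹ := by
          rw [← h5]
          calc S.h c⁻¹ (d / Units.map (σ : F →* F) c) = (S.n2 * S.n2) * S.h c⁻¹ (d / Units.map (σ : F →* F) c) *
              (S.n2 * S.n2)⁻¹ := by rw [S.n2_sq]; group
            _ = _ := by group
        rw [h8]; group
      rw [h7, rota_conj_T h1 (rota_of_maps (S.rot_maps (k - 4))) (S.mem_T.2 ⟨c, d, rfl⟩), rotk_h]
    rw [hval _ (hwT _ ht) _ _ h6, hval _ ht _ _ rfl, hn2] at h4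
    exact h4

/-- **(F2)** `n2` moves the characters not trivial on the torus of the Levi factor -/
theorem f2_key {M : Type*} [CommGroup M] (μ : ↥(Bo S) →* M) (hTS : ¬ ∀ s (hs : s ∈ TS S), μ ⟨s, TS_le_Bo hs⟩ = 1) :
    ∃ s, ∃ hs : s ∈ Bo S, ∃ hs' : S.n2 * s * S.n2⁻¹ ∈ Bo S, μ ⟨S.n2 * s * S.n2⁻¹, hs'⟩ ≠ μ ⟨s, hs⟩ := by
  by_contra hcon
  push Not at hcon
  apply hTS
  rintro s ⟨d, rfl⟩
  -- inversion on the torus of the Levi factor
  have h2 : ∀ d : Fˣ, S.n2 * S.h (Units.map (σ : F →* F) d) d * S.n2⁻¹ = (S.h (Units.map (σ : F →* F) d) d)⁻¹ := by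
    intro d
    rw [S.n2_h, S.h_inv, map_map σ S.sq, pow_two]
    congr 1
    rw [div_mul_cancel_left]
  have h3 : ∀ d : Fˣ, μ ⟨S.h (Units.map (σ : F →* F) d) d, TS_le_Bo ⟨d, rfl⟩⟩ *
      μ ⟨S.h (Units.map (σ : F →* F) d) d, TS_le_Bo ⟨d, rfl⟩⟩ = 1 := by
    intro d
    have ht : S.h (Units.map (σ : F →* F) d) d ∈ S.T := S.mem_T.2 ⟨_, _, rfl⟩
    have h4 : S.n2 * S.h (Units.map (σ : F →* F) d) d * S.n2⁻¹ ∈ Bo S := by
      rw [h2]; exact T_le_Bo (inv_mem ht)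
    have h5 := hcon _ (T_le_Bo ht) h4
    have h6 : μ ⟨S.n2 * S.h (Units.map (σ : F →* F) d) d * S.n2⁻¹, h4⟩ =
        (μ ⟨S.h (Units.map (σ : F →* F) d) d, T_le_Bo ht⟩)⁻¹ := by
      rw [← map_inv]
      congr 1
      exact Subtype.ext (h2 d)
    rw [h6] at h5
    nth_rewrite 1 [← h5]
    rw [inv_mul_cancel]
  obtain ⟨x, rfl⟩ := σ_units_surj (σ := σ) d
  obtain ⟨y, rfl⟩ := σ_units_surj (σ := σ) x
  have h7 := h3 y
  rw [← map_mul] at h7
  rw [← h7]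
  congr 1
  apply Subtype.ext
  show S.h _ _ = S.h _ _ * S.h _ _
  rw [S.h_mul, map_map σ S.sq, ← pow_two, ← pow_two, map_map σ S.sq]

/-! ### `P ∩ nPn⁻¹` -/

theorem Pa_inter_neg (hopp : ∀ x ∈ Bo S, x ∈ J S.XZ 9 16 → x = 1) {v : G} (hv : v ∈ J S.XZ 9 15) (hp : v ∈ Pa S) :
    v = 1 := by
  rcases BPB hp with hb | ⟨b, hb, b', hb', h⟩
  · exact hopp v hb (J_mono le_rfl (by norm_num) hv)
  · exfalso
    obtain ⟨u2, hu2, t2, ht2, rfl⟩ := hb'
    obtain ⟨x, hx, u', hu', rfl⟩ := U_split hu2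
    -- `v = (b u'') n2 x t2`
    have hxt : x * t2 ∈ LL S ⊔ S.T := mul_mem ((le_sup_left : LL S ≤ _) (X8_le hx)) ((le_sup_right : S.T ≤ _) ht2)
    have k1 : (x * t2) * v * (x * t2)⁻¹ ∈ J S.XZ 9 15 := by
      have h1 := LL_conj915 (X8_le hx) (S.T_conj_J ht2 hv)
      rwa [show x * (t2 * v * t2⁻¹) * x⁻¹ = (x * t2) * v * (x * t2)⁻¹ by group] at h1
    have k2 : S.n2 * (x * u' * x⁻¹) * S.n2⁻¹ ∈ J S.XZ 1 7 :=
      LL_conj17 n2_mem_LL (LL_conj17 (X8_le hx) hu')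
    have k3 : ∃ c ∈ Bo S, (x * t2) * v * (x * t2)⁻¹ = c * S.n2 := by
      refine ⟨(x * t2) * b * (S.n2 * (x * u' * x⁻¹) * S.n2⁻¹), mul_mem (mul_mem (mul_mem (U_le_Bo (mem_J hx (by norm_num)
        le_rfl)) (T_le_Bo ht2)) hb) (U_le_Bo (J_mono le_rfl (by norm_num) k2)), ?_⟩
      rw [h]; group
    obtain ⟨c, hc, hcv⟩ := k3
    obtain ⟨a, ha, ha1⟩ := S.zsys8.exists_ne 8
    have ha0 : S.n2⁻¹ * a * S.n2 ∈ S.XZ 16 := by
      have h1 : S.n2⁻¹ * a * S.n2 ∈ S.XZ 0 := S.n2_refl.mem_inv ha (by norm_num)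
      have := XZ_per S 0
      rw [zero_add] at this
      rwa [this]
    have hconj : ((x * t2) * v * (x * t2)⁻¹) * (S.n2⁻¹ * a * S.n2) * ((x * t2) * v * (x * t2)⁻¹)⁻¹ = c * a * c⁻¹ := by
      rw [hcv]; group
    have m1 : c * a * c⁻¹ ∈ J S.XZ 9 16 := by
      rw [← hconj]
      exact mul_mem (mul_mem (J_mono le_rfl (by norm_num) k1) (mem_J ha0 (by norm_num) le_rfl))
        (inv_mem (J_mono le_rfl (by norm_num) k1))
    have m2 : c * a * c⁻¹ ∈ Bo S := mul_mem (mul_mem hc (U_le_Bo (mem_J ha (by norm_num) le_rfl))) (inv_mem hc)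
    have m3 := hopp _ m2 m1
    exact ha1 (by
      have : a = c⁻¹ * (c * a * c⁻¹) * c := by group
      rw [this, m3]; group)

/-- `U_P ∩ nPn⁻¹ = 1` -/
theorem UP_inter (hopp : ∀ x ∈ Bo S, x ∈ J S.XZ 9 16 → x = 1) {v : G} (hv : v ∈ J S.XZ 1 7)
    (hp : (nn S)⁻¹ * v * nn S ∈ Pa S) : v = 1 := by
  have h1 : (nn S)⁻¹ * v * nn S ∈ J S.XZ (-7) (-1) := nn_refl.mem_J_inv hv (by norm_num) (by norm_num)
  have h2 : (nn S)⁻¹ * v * nn S ∈ J S.XZ 9 15 := by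
    have := J_per S (-7) (-1)
    rw [show (-7 : ℤ) + 16 = 9 by norm_num, show (-1 : ℤ) + 16 = 15 by norm_num] at this
    rwa [this]
  have h3 := Pa_inter_neg hopp h2 hp
  have : v = nn S * ((nn S)⁻¹ * v * nn S) * (nn S)⁻¹ := by group
  rw [this, h3]; group

/-- `P ∩ nPn⁻¹ = L` -/
theorem Pa_inter (hopp : ∀ x ∈ Bo S, x ∈ J S.XZ 9 16 → x = 1) {g : G} (hg : g ∈ Pa S)
    (hg' : (nn S)⁻¹ * g * nn S ∈ Pa S) : ∃ l ∈ LL S, ∃ z ∈ Zz S, g = l * z := by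
  obtain ⟨u, hu, l, hl, z, hz, rfl⟩ := hg
  have h1 : (nn S)⁻¹ * (l * z) * nn S ∈ Pa S := by
    have e1 : (nn S)⁻¹ * (l * z) * nn S = l * z⁻¹ := by
      have h2 := nn_LL hl
      have h3 := nn_Zz hz
      have h4 : (nn S)⁻¹ * l = l * (nn S)⁻¹ := by rw [nn_inv, h2]
      have h5 : (nn S)⁻¹ * z * nn S = z⁻¹ := by
        rw [nn_inv] at h3 ⊢
        exact h3
      calc (nn S)⁻¹ * (l * z) * nn S = ((nn S)⁻¹ * l) * z * nn S := by group
        _ = l * ((nn S)⁻¹ * z * nn S) := by rw [h4]; group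
        _ = l * z⁻¹ := by rw [h5]
    rw [e1]
    exact mul_mem (LL_le_Pa hl) (Zz_le_Pa (inv_mem hz))
  have h2 : (nn S)⁻¹ * u * nn S ∈ Pa S := by
    have := mul_mem hg' (inv_mem h1)
    rwa [show (nn S)⁻¹ * (u * l * z) * nn S * ((nn S)⁻¹ * (l * z) * nn S)⁻¹ = (nn S)⁻¹ * u * nn S by group] at this
  have h3 := UP_inter hopp hu h2
  exact ⟨l, hl, z, hz, by rw [h3, one_mul]⟩

end Fin

end Cfsg.Agent.H84.TF8
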